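import Mathlib
import Cfsg.Agent.K3P.Defs
import Cfsg.Agent.K3P.Bas
import Cfsg.Agent.K3P.SL
import Cfsg.Agent.K3P.Fpf
import Cfsg.Agent.GT.Zipper
import Cfsg.Agent.GT.PiGroups
import Cfsg.Agent.Cl.LinearBasic
import Cfsg.Agent.S3050

set_option autoImplicit false
open Cfsg Subgroup

namespace Cfsg.Agent.K3P

variable {G : Type*} [Group G] [Finite G] {p : ℕ} {M Q K : Subgroup G}

namespace ToA

theorem exists_ord {r : ℕ} (hr : r.Prime) (h : r ∣ Nat.card K) : ∃ x ∈ K, orderOf x = r := by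
  haveI := Fact.mk hr
  obtain ⟨x, hx⟩ := exists_prime_orderOf_dvd_card' r h
  exact ⟨x, x.2, (Subgroup.orderOf_coe x).trans hx⟩

/-- Elements of `M` with a fixed point on `Q` are 2-elements. -/
theorem tw_of_fix (h : Th G p) (c : Cf p M Q K) (hp : p ∣ Nat.card M)
    (hc : p = 5 ∨ p = 17 ∨ (p = 7 ∧ 9 ∣ Nat.card M)) {g v : G} (hg : g ∈ M) (hv : v ∈ Q)
    (v1 : v ≠ 1) (e : Commute g v) : Tw g := by
  have h0 := (orderOf_pos g).ne'
  refine ⟨_, (congrArg (g ^ ·) (Nat.eq_prime_pow_of_unique_prime_dvd (p := 2) h0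
    fun {r} hr hd => ?_)).symm.trans (pow_orderOf_eq_one g)⟩
  have ho := orderOf_pow_orderOf_div h0 hd
  by_contra h2
  by_cases h3 : r = 3
  · exact v1 (h.fpf3 c.two c.nQ.ge hp hc (pow_mem hg _) (ho.trans h3) hv (e.pow_left _))
  · have h5 : 5 ≤ r := hr.five_le_of_ne_two_of_ne_three h2 h3
    exact v1 (h.fpf (ho.trans (h.shape.eq_of_dvd hr h5 (hd.trans (orderOf_dvd_natCard g))))
      (e.pow_left _) (tw_of_mem c.two hv))

theorem sq_ge (c : Cf p M Q K) (hF : ∀ g ∈ M, ∀ v ∈ Q, v ≠ 1 → Commute g v → Tw g) {a : G}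
    (ha : a ∈ M) (hn : a ∉ Q) : Nat.card (Q ⊓ Cn a : Subgroup G) ^ 2 ≤ Nat.card Q := by
  obtain ⟨m, hm, h2⟩ : ∃ m ∈ M, ¬ IsPGroup 2 (zpowers a ⊔ zpowers a ^ᶜ m : Subgroup G) := by
    by_contra h
    push Not at h
    exact hn (c.core ▸ GT.baer_suzuki_of (zpowers_le.2 ha) h (mem_zpowers a))
  have mQ : m ∈ normalizer (Q : Set G) := c.nQ ▸ hm
  have hd : Disjoint (Q ⊓ Cn a) ((Q ⊓ Cn a) ^ᶜ m) := disjoint_iff_inf_le.2 fun v hv => by
    by_contra v1
    refine h2 (two_of_tw fun g hg => ?_)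
    have hle : (zpowers a ⊔ zpowers a ^ᶜ m : Subgroup G) ≤ M ⊓ Cn v := by
      refine sup_le (zpowers_le.2 ⟨ha, mem_Cn.2 (mem_Cn.1 hv.1.2).symm⟩) ?_
      rw [GT.map_conj_le_iff, zpowers_le, GT.mem_map_conj_inv]
      refine ⟨M.mul_mem (M.mul_mem hm ha) (M.inv_mem hm), mem_Cn.2 ?_⟩
      have h1 := (mem_Cn.1 (GT.mem_map_conj.1 hv.2).2).eq
      calc v * (m * a * m⁻¹) = m * (m⁻¹ * v * m * a) * m⁻¹ := by group
        _ = m * a * m⁻¹ * v := by rw [← h1]; group
    exact hF g (hle hg).1 v hv.1.1 v1 (mem_Cn.1 (hle hg).2).symm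
  have hle : (Q ⊓ Cn a) ^ᶜ m ≤ Q := GT.map_conj_le_iff_forall.2 fun x hx =>
    (mem_normalizer_iff.1 mQ x).1 hx.1
  have h3 := Nat.card_le_card_of_injective
    (fun g : ↥(Q ⊓ Cn a) × ↥((Q ⊓ Cn a) ^ᶜ m) => (⟨g.1 * g.2, Q.mul_mem g.1.2.1 (hle g.2.2)⟩ : Q))
    fun g g' e => mul_injective_of_disjoint hd (congrArg Subtype.val e)
  rwa [Nat.card_prod, card_map_of_injective (MulAut.conj m).injective, ← sq] at h3

theorem inverts (h : Th G 5) {x a : G} (hx : orderOf x = 5) (ha : a ∈ normalizer (zpowers x : Set G))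
    (a2 : a * a = 1) (a1 : a ≠ 1) : a * x * a⁻¹ = x ^ 4 := by
  have h1 := (mem_normalizer_iff.1 ha x).1 (mem_zpowers x)
  classical
  rw [mem_zpowers_iff_mem_range_orderOf, hx, Finset.mem_image] at h1
  obtain ⟨i, hi, e⟩ := h1
  have h2 : x ^ (i * i) = x ^ 1 := by
    rw [pow_mul, e, conj_pow, e, pow_one]
    calc a * (a * x * a⁻¹) * a⁻¹ = a * a * x * (a * a)⁻¹ := by group
      _ = x := by rw [a2]; group
  rw [pow_eq_pow_iff_modEq, hx] at h2
  have h3 : i ≠ 1 := fun e1 => a1 (h.fpf hx (by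
    rw [e1, pow_one, eq_mul_inv_iff_mul_eq] at e; exact e) ⟨1, by rw [pow_one, sq, a2]⟩)
  rw [Finset.mem_range] at hi
  rw [← e]
  interval_cases i <;> simp_all [Nat.ModEq]

theorem exists_w (h : Th G 5) (c : Cf 5 M Q K) {x : G} (hx : orderOf x = 5) (xM : x ∈ M)
    (h4 : 2 ^ 2 ∣ Nat.card (M ⊓ normalizer (zpowers x : Set G) : Subgroup G)) :
    ∃ w ∈ M, Tw w ∧ w * w ∉ Q := by
  obtain ⟨P0, hP0⟩ := Sylow.exists_subgroup_card_pow_prime 2 h4
  set P := P0.map (M ⊓ normalizer (zpowers x : Set G)).subtype with hP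
  have cP : Nat.card P = 2 ^ 2 := (card_map_of_injective (subtype_injective _)).trans hP0
  have lP : P ≤ M ⊓ normalizer (zpowers x : Set G) := map_subtype_le _
  have pP : IsPGroup 2 P := IsPGroup.of_card cP
  obtain ⟨w, hw, w2⟩ : ∃ w ∈ P, w * w ≠ 1 := by
    by_contra hn
    push Not at hn
    have h1 := Set.ncard_diff_singleton_add_one (s := (P : Set G)) P.one_mem
    have h2 : (P : Set G).ncard = Nat.card P := rfl
    obtain ⟨a, ha, b, hb, ab⟩ := (Set.one_lt_ncard (s := (P : Set G) \ {1}) (Set.toFinite _)).1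
      (by omega)
    have e1 := inverts h hx (lP ha.1).2 (hn a ha.1) ha.2
    have e2 := inverts h hx (lP hb.1).2 (hn b hb.1) hb.2
    have e3 : a * b * x * (a * b)⁻¹ = x := by
      rw [show a * b * x * (a * b)⁻¹ = a * (b * x * b⁻¹) * a⁻¹ by group, e2, ← conj_pow, e1,
        ← pow_mul, ← pow_mod_orderOf, hx]
      exact pow_one x
    have e4 := h.fpf hx (mul_inv_eq_iff_eq_mul.1 e3).symm (tw_of_mem pP (P.mul_mem ha.1 hb.1))
    exact ab (mul_right_cancel (e4.trans (hn b hb.1).symm))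
  refine ⟨w, (lP hw).1, tw_of_mem pP hw, fun hQ => w2 ?_⟩
  have h1 : x * (w * w) * x⁻¹ * (w * w)⁻¹ ∈ Q :=
    Q.mul_mem ((mem_normalizer_iff.1 (c.nQ ▸ xM) _).1 hQ) (Q.inv_mem hQ)
  have h2 : x * (w * w) * x⁻¹ * (w * w)⁻¹ ∈ zpowers x := by
    have := mul_mem (mem_zpowers x) ((mem_normalizer_iff.1 (lP (P.mul_mem hw hw)).2 _).1
      (inv_mem (mem_zpowers x)))
    simpa only [mul_assoc] using this
  obtain ⟨i, hi⟩ := h2
  have h3 := h.fpf hx (hi ▸ (Commute.refl x).zpow_right i) (tw_of_mem c.two h1)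
  rw [mul_inv_eq_one, mul_inv_eq_iff_eq_mul] at h3
  exact h.fpf hx h3 (tw_of_mem c.two hQ)

theorem relIndex_mul (h : Th G p) (c : Cf p M Q K) {x : G} (hx : orderOf x = p) (xK : x ∈ K) :
    K.relIndex M * Nat.card (K ⊓ normalizer (zpowers x : Set G) : Subgroup G) =
      Nat.card (M ⊓ normalizer (zpowers x : Set G) : Subgroup G) := by
  have h1 : M = (M ⊓ normalizer (zpowers x : Set G)) ⊔ K := by
    refine le_antisymm (fun m hm => ?_) (sup_le inf_le_left c.KM)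
    obtain ⟨g, hg, e⟩ := h.conj_p hx (((MulAut.conj m).orderOf_eq x).trans hx) xK
      ((mem_normalizer_iff.1 (c.nK hm) x).1 xK)
    replace e := GT.map_conj_eq_map_conj_iff.1
      ((MonoidHom.map_zpowers (MulAut.conj m).toMonoidHom x).trans e.symm)
    rw [show m = g * (g⁻¹ * m) by group]
    exact mul_mem (mem_sup_right hg) (mem_sup_left ⟨M.mul_mem (M.inv_mem (c.KM hg)) hm, e⟩)
  conv_lhs => rw [h1, GT.relIndex_sup_of_le_normalizer (inf_le_left.trans c.nK)]
  have h2 := (K.subgroupOf (M ⊓ normalizer (zpowers x : Set G))).index_mul_card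
  rw [← inf_subgroupOf_right, Nat.card_congr (subgroupOfEquivOfLe inf_le_right).toEquiv,
    inf_subgroupOf_right, ← inf_assoc, inf_eq_left.2 c.KM] at h2
  exact h2

end ToA

open ToA

theorem Cf.toA (h : Th G p) (c : Cf p M Q K) {F : Type} [Field F] [Fintype F] {q : ℕ}
    (hq : q = 4 ∨ q = 8) (hF : Fintype.card F = q)
    (s : Sec K Q (Matrix.SpecialLinearGroup (Fin 2) F)) : CA p q M Q K := by
  have cK : Nat.card K = Nat.card Q * (q * (q ^ 2 - 1)) := by
    rw [s.card c.QK, Cl.card_sl_two, Nat.card_eq_fintype_card (α := F), hF]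
  have dK : ∀ r, r ∣ q * (q ^ 2 - 1) → r ∣ Nat.card K := fun r hr => cK ▸ hr.mul_left _
  have dM := card_dvd_of_le c.KM
  have pq : (p = 5 ∧ q = 4) ∨ (p = 7 ∧ q = 8) := by
    rcases hq with rfl | rfl
    · exact Or.inl ⟨(h.shape.eq_of_dvd (by norm_num) le_rfl
        ((dK 5 (by norm_num)).trans (card_subgroup_dvd_card K))).symm, rfl⟩
    · exact Or.inr ⟨(h.shape.eq_of_dvd (by norm_num) (by norm_num)
        ((dK 7 (by norm_num)).trans (card_subgroup_dvd_card K))).symm, rfl⟩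
  have pK : p ∣ Nat.card K := dK p (by rcases pq with ⟨rfl, rfl⟩ | ⟨rfl, rfl⟩ <;> norm_num)
  have hc : p = 5 ∨ p = 17 ∨ (p = 7 ∧ 9 ∣ Nat.card M) := by
    rcases pq with ⟨rfl, rfl⟩ | ⟨rfl, rfl⟩
    · exact Or.inl rfl
    · exact Or.inr (Or.inr ⟨rfl, (dK 9 (by norm_num)).trans dM⟩)
  have hT : ∀ g ∈ M, ∀ v ∈ Q, v ≠ 1 → Commute g v → Tw g :=
    fun g hg v hv v1 e => tw_of_fix h c (pK.trans dM) hc hg hv v1 e
  obtain ⟨x, xK, hx⟩ := exists_ord h.shape.prime pK
  obtain ⟨y, yK, hy⟩ := exists_ord Nat.prime_three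
    (dK 3 (by rcases hq with rfl | rfl <;> norm_num))
  have KN : K ≤ normalizer (Q : Set G) := c.KM.trans c.nQ.ge
  have fy : ∀ v ∈ Q, Commute y v → v = 1 :=
    fun v hv e => h.fpf3 c.two c.nQ.ge (pK.trans dM) hc (c.KM yK) hy hv e
  obtain ⟨f, fs, fk⟩ := s
  have el : IsElementaryAbelian 2 Q := by
    haveI : (Q.subgroupOf K).Normal := (normal_subgroupOf_iff_le_normalizer c.QK).2 KN
    have e := (QuotientGroup.quotientMulEquivOfEq (show Q.subgroupOf K = f.ker from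
      Subgroup.ext fun k => (fk k).symm)).trans (QuotientGroup.quotientKerEquivOfSurjective f fs)
    obtain ⟨n, hn, hn'⟩ : ∃ n, 2 ≤ n ∧ Fintype.card F = 2 ^ n := by
      rcases hq with rfl | rfl
      exacts [⟨2, le_rfl, hF⟩, ⟨3, by norm_num, hF⟩]
    have h1 := (S3050.result (Q.subgroupOf K) (c.two.comap_of_injective _ K.subtype_injective) n hn
      F hn' e ⟨y, yK⟩ ((Subgroup.orderOf_coe _).symm.trans hy) fun v hv e => Subtype.ext
        (fy v hv (mul_inv_eq_iff_eq_mul.1 (congrArg Subtype.val e)))).1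
    exact el_of_sq fun a ha => by
      have := congrArg Subtype.val (h1.2 ⟨a, c.QK ha⟩ ha)
      rwa [sq] at this
  have m1 := h.card_mod c.two hx (KN xK)
  refine ⟨pq, el, c.nQ, c.cen, c.QK, c.KM, c.nK, cK, fun a ha hn a2 => le_antisymm (sq_ge c hT ha hn)
    (sq_le el (c.nQ ▸ ha) (mem_centralizer_iff.2 fun b hb => (el_comm el hb a2).eq)),
    fun X hQX hXK cX => ?_, ?_, ?_⟩
  · let g := f.comp (inclusion hXK)
    have s' : Sec X Q g.range := ⟨g.rangeRestrict, g.rangeRestrict_surjective, fun k =>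
      Subtype.ext_iff.trans (fk (inclusion hXK k))⟩
    have h1 := s'.card hQX
    rw [cX, mul_comm] at h1
    obtain ⟨h2, t, tn, ho, h3⟩ := sl2_syl hq hF g.range
      (Nat.eq_of_mul_eq_mul_left Nat.card_pos h1).symm
    have od : Odd (q - 1) := by rcases hq with rfl | rfl <;> decide
    obtain ⟨k, rfl, hk⟩ := lift_odd c.two f fs fk (ho ▸ od)
    refine ⟨fun a ha => (fk ⟨a * a, hXK (X.mul_mem ha ha)⟩).1
      ((map_mul g ⟨a, ha⟩ ⟨a, ha⟩).trans (h2 _ ⟨_, rfl⟩)), k, k.2, ?_, hk.trans ho, ?_⟩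
    · refine GT.mem_normalizer_iff_of_finite.2 fun a ha => ?_
      obtain ⟨b, hb⟩ := (mem_normalizer_iff.1 tn _).1 ⟨⟨a, ha⟩, rfl⟩
      have h4 := (fk (k * ⟨a, hXK ha⟩ * k⁻¹ * (inclusion hXK b)⁻¹)).1 (by
        rw [map_mul, map_inv, mul_inv_eq_one, map_mul, map_mul, map_inv]
        exact hb.symm)
      have h5 := X.mul_mem (hQX h4) b.2
      simpa using h5
    · refine eq_bot_iff.2 fun a ha => ?_
      have h4 : Commute k ⟨a, hXK ha.1⟩ := Subtype.ext (mem_Cn.1 ha.2).eq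
      have h5 := (fk ⟨a, hXK ha.1⟩).1 (h3 _ ⟨⟨a, ha.1⟩, rfl⟩ (h4.map f))
      by_contra a1
      obtain ⟨j, hj⟩ := hT k (c.KM k.2) a h5 a1 (mem_Cn.1 ha.2)
      have h6 := orderOf_dvd_of_pow_eq_one hj
      rw [hk, ho] at h6
      have h7 := Nat.Coprime.eq_one_of_dvd (od.coprime_two_right.pow_right j) h6
      rcases hq with rfl | rfl <;> omega
  · obtain ⟨e, n, h1, h2, -⟩ := h.norm_card hx (c.KM xK)
    obtain ⟨e', n', h3, h4, h5, h6⟩ := h.norm_card hx xK
    have h7 := relIndex_mul h c hx xK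
    rw [h1, h3] at h7
    rw [cK] at h5
    have h8 : e' = 2 := by
      rcases pq with ⟨rfl, rfl⟩ | ⟨rfl, rfl⟩
      · have h9 : Nat.card Q * 12 = e' * n' := by
          have : 5 * (Nat.card Q * 12) = 5 * (e' * n') := by rw [← mul_assoc 5 e', ← h5]; ring
          omega
        have h10 := congrArg (· % 5) h9
        simp only [Nat.mul_mod (Nat.card Q), Nat.mul_mod e', m1, h6] at h10
        have := Nat.le_of_dvd (by norm_num) h4
        omega
      · have h9 : Nat.card Q * 72 = e' * n' := by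
          have : 7 * (Nat.card Q * 72) = 7 * (e' * n') := by rw [← mul_assoc 7 e', ← h5]; ring
          omega
        have h10 := congrArg (· % 7) h9
        simp only [Nat.mul_mod (Nat.card Q), Nat.mul_mod e', m1, h6] at h10
        have := Nat.le_of_dvd (by norm_num) h4
        omega
    subst h8
    rcases pq with ⟨rfl, rfl⟩ | ⟨rfl, rfl⟩
    · have h9 : e = 2 * K.relIndex M := by omega
      have h10 := Nat.le_of_dvd (by norm_num) h2
      by_cases h11 : K.relIndex M = 2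
      · exact Or.inr ⟨rfl, h11, exists_w h c hx (c.KM xK) (by rw [h1, h9, h11]; norm_num)⟩
      · refine Or.inl ?_
        rw [h9] at h2 h10
        generalize K.relIndex M = r at h2 h10 h11
        have : r ≤ 2 := by omega
        interval_cases r <;> simp_all
    · have h9 : e = 2 * K.relIndex M := by omega
      have h10 := Nat.le_of_dvd (by norm_num) h2
      refine Or.inl ?_
      rw [h9] at h2 h10
      generalize K.relIndex M = r at h2 h10
      have : r ≤ 3 := by omega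
      interval_cases r <;> simp_all [Nat.odd_iff]
  · have m3 := card_mod_cn Nat.prime_three hy (KN yK)
    rw [show Q ⊓ Cn y = ⊥ from eq_bot_iff.2 fun v hv => fy v hv.1 (mem_Cn.1 hv.2), card_bot] at m3
    obtain ⟨n, hn⟩ := c.two.exists_card_eq
    have n0 : n ≠ 0 := fun e => c.ne (by rw [e] at hn; exact eq_bot_of_card_eq _ hn)
    rw [hn] at m1 m3 ⊢
    by_cases h9 : 9 ≤ n
    · have := Nat.pow_le_pow_right (show 0 < 2 by norm_num) h9
      rcases hq with rfl | rfl <;> omega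
    · push Not at h9
      rcases pq with ⟨rfl, rfl⟩ | ⟨rfl, rfl⟩ <;> interval_cases n <;> simp_all

end Cfsg.Agent.K3P
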